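import Cfsg.Agent.H346.IF.SUGeom
import Cfsg.Agent.S0278
import Cfsg.Agent.S2148
import Cfsg.Agent.S2149
import Cfsg.Agent.S2150
import Cfsg.Agent.S2151
import Cfsg.Agent.S2152

/-!
# S5719, `PSU_m(q)`, `q` odd, `m ≥ 5`: the final step (helper346)

`final_su` : in a counterexample `A < PSU_m(q)` has no fundamental involution.
-/

set_option autoImplicit false
set_option linter.unusedSectionVars false

namespace Cfsg.Agent.H346.SUFin

open Matrix Subgroup Module Cfsg
open Cfsg.Agent.LieClassical.HermBasic Cfsg.Agent.LieClassical.HermSiegel Cfsg.Agent.LieClassical.HermGen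
open Cfsg.Agent.ClassicalGeometry.PSUAutBasic Cfsg.Agent.ClassicalGeometry.HermOrtho
open Cfsg.Agent.H189.SN (ON Im phi Pm phi_Im phi_perp phi_injective Im_mulVec decomp herm_Im herm_Im_perp Im_injective
  Pm_mulVec Pm_Im_mulVec pM pM_iso pM_det pM_mulVec pM_Im pM_perp)
open Cfsg.Agent.H411.IFU (Fd FdOf)
open Cfsg.Agent.H209.Fxy (IF)
open scoped commutatorElement

/-! ### Minimal index -/

/-- proper subgroups of a perfect group and of its central quotient -/
theorem min_index_lift {G : Type*} [Group G] [Finite G] (hperf : commutator G = ⊤) {P : ℕ}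
    (hP : ∀ H : Subgroup (G ⧸ center G), H ≠ ⊤ → P ≤ H.index) (X : Subgroup G) (hX : X ≠ ⊤) : P ≤ X.index := by
  have hsur : Function.Surjective (QuotientGroup.mk' (center G)) := QuotientGroup.mk'_surjective _
  have hm : X.map (QuotientGroup.mk' (center G)) ≠ ⊤ := by
    intro hm
    apply hX
    have hdec : ∀ g : G, ∃ x ∈ X, ∃ z ∈ center G, g = x * z := by
      intro g
      have h1 : QuotientGroup.mk' (center G) g ∈ X.map (QuotientGroup.mk' (center G)) := by rw [hm]; trivial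
      obtain ⟨x, hx, hxg⟩ := h1
      refine ⟨x, hx, x⁻¹ * g, ?_, by group⟩
      exact QuotientGroup.eq.1 hxg
    rw [eq_top_iff, ← hperf, _root_.commutator_def, commutator_le]
    rintro g - h -
    obtain ⟨x, hx, z, hz, rfl⟩ := hdec g
    obtain ⟨y, hy, w, hw, rfl⟩ := hdec h
    have hz' := mem_center_iff.1 hz
    have hw' := mem_center_iff.1 hw
    have e : ⁅x * z, y * w⁆ = ⁅x, y⁆ := by
      rw [commutatorElement_def, commutatorElement_def, _root_.mul_inv_rev, _root_.mul_inv_rev]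
      calc x * z * (y * w) * (z⁻¹ * x⁻¹) * (w⁻¹ * y⁻¹) = x * (z * (y * w * z⁻¹)) * x⁻¹ * w⁻¹ * y⁻¹ := by group
        _ = x * y * (w * x⁻¹) * w⁻¹ * y⁻¹ := by rw [← hz' (y * w * z⁻¹)]; group
        _ = x * y * x⁻¹ * y⁻¹ := by rw [← hw' x⁻¹]; group
    rw [e, commutatorElement_def]
    exact X.mul_mem (X.mul_mem (X.mul_mem hx hy) (X.inv_mem hx)) (X.inv_mem hy)
  exact (hP _ hm).trans (Nat.le_of_dvd (Nat.pos_of_ne_zero index_ne_zero_of_finite) (index_map_dvd _ hsur))

/-- the needed lower bound `P` -/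
theorem exists_P {F : Type} [Field F] [Fintype F] {q k : ℕ} (hF : Fintype.card F = q ^ 2) (hq : 3 ≤ q) (hk : 3 ≤ k) :
    ∃ P : ℕ, (∀ H : Subgroup (PSU k F q), H ≠ ⊤ → P ≤ H.index) ∧
      ((k = 3 ∧ q = 5 ∧ P = 50) ∨ ∃ e, P = q ^ e ∧ 4 * k + 5 ≤ 5 * e + 3) := by
  rcases (by omega : k = 3 ∨ k = 4 ∨ 5 ≤ k) with rfl | rfl | hk5
  · by_cases h5 : q = 5
    · subst h5
      exact ⟨50, (Cfsg.Agent.S2149.result (by rw [hF]; norm_num)).1, Or.inl ⟨rfl, rfl, rfl⟩⟩
    · exact ⟨q ^ 3, fun H hH => (Nat.le_succ _).trans ((Cfsg.Agent.S2148.result q hF hq h5).1 H hH),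
        Or.inr ⟨3, rfl, by norm_num⟩⟩
  · refine ⟨q ^ 4, fun H hH => le_trans ?_ ((Cfsg.Agent.S2150.result q hF (by omega)).1 H hH), Or.inr ⟨4, rfl, by norm_num⟩⟩
    nlinarith [pow_pos (by omega : 0 < q) 3]
  · refine ⟨q ^ (2 * k - 3), fun H hH => ?_, Or.inr ⟨2 * k - 3, rfl, by omega⟩⟩
    have hq2 : 0 < q ^ 2 - 1 := by
      have : 3 ^ 2 ≤ q ^ 2 := Nat.pow_le_pow_left hq 2
      omega
    rcases Nat.even_or_odd k with he | ho
    · refine le_trans ?_ ((Cfsg.Agent.S2152.result q hF hq k (by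
        rcases he with ⟨r, hr⟩
        omega) he).1 H hH)
      rw [Nat.le_div_iff_mul_le hq2]
      have e1 : q ^ (2 * k - 3) * (q ^ 2 - 1) = q ^ (k - 1) * (q ^ k - q ^ (k - 2)) := by
        rw [Nat.mul_sub, Nat.mul_sub, mul_one, ← pow_add, ← pow_add, ← pow_add]
        congr 2 <;> omega
      rw [e1, mul_comm]
      refine Nat.mul_le_mul ?_ (Nat.le_succ _)
      have : 1 ≤ q ^ (k - 2) := Nat.one_le_pow _ _ (by omega)
      omega
    · refine le_trans ?_ ((Cfsg.Agent.S2151.result q hF (by omega) k hk5 ho).1 H hH)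
      rw [Nat.le_div_iff_mul_le hq2]
      have e1 : q ^ (2 * k - 3) * (q ^ 2 - 1) = q ^ k * (q ^ (k - 1) - q ^ (k - 3)) := by
        rw [Nat.mul_sub, Nat.mul_sub, mul_one, ← pow_add, ← pow_add, ← pow_add]
        congr 2 <;> omega
      rw [e1]
      refine Nat.mul_le_mul (Nat.le_succ _) ?_
      have : 1 ≤ q ^ (k - 3) := Nat.one_le_pow _ _ (by omega)
      omega

/-- the factors of the order -/
def fq (q i : ℕ) : ℕ := if Even i then q ^ (i + 1) + 1 else q ^ (i + 1) - 1

/-- the numerical inequality -/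
theorem num {q k P : ℕ} (hq : 3 ≤ q) (hk : 3 ≤ k)
    (hP : (k = 3 ∧ q = 5 ∧ P = 50) ∨ ∃ e, P = q ^ e ∧ 4 * k + 5 ≤ 5 * e + 3) :
    q ^ (2 * k) * (fq q k * fq q (k + 1)) ≤ P ^ 5 * ((q + 1) * (q ^ 2 - 1)) := by
  rcases hP with ⟨rfl, rfl, rfl⟩ | ⟨e, rfl, he⟩
  · have h1 : ¬ Even 3 := by decide
    have h2 : Even (3 + 1) := by decide
    rw [fq, fq, if_neg h1, if_pos h2]
    norm_num
  · have hq1 : 1 ≤ q := by omega
    have hf : ∀ i, fq q i ≤ q ^ (i + 1) + 1 := by
      intro i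
      unfold fq
      split_ifs
      · exact le_rfl
      · omega
    have hf1 : fq q k * fq q (k + 1) ≤ q ^ (k + 2) * q ^ (k + 3) := by
      refine Nat.mul_le_mul ((hf k).trans ?_) ((hf (k + 1)).trans ?_)
      · calc q ^ (k + 1) + 1 ≤ q ^ (k + 1) + q ^ (k + 1) := by
              have := Nat.one_le_pow (k + 1) q hq1
              omega
          _ ≤ q ^ (k + 2) := by rw [pow_succ q (k + 1)]; nlinarith [Nat.one_le_pow (k + 1) q hq1]
      · calc q ^ (k + 1 + 1) + 1 ≤ q ^ (k + 2) + q ^ (k + 2) := by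
              have := Nat.one_le_pow (k + 2) q hq1
              have e : k + 1 + 1 = k + 2 := rfl
              rw [e]
              omega
          _ ≤ q ^ (k + 3) := by rw [pow_succ q (k + 2)]; nlinarith [Nat.one_le_pow (k + 2) q hq1]
    have h3 : q ^ 3 ≤ (q + 1) * (q ^ 2 - 1) := by
      obtain ⟨r, rfl⟩ : ∃ r, q = r + 3 := ⟨q - 3, by omega⟩
      have : (r + 3) ^ 2 - 1 = r ^ 2 + 6 * r + 8 := by
        have : (r + 3) ^ 2 = r ^ 2 + 6 * r + 8 + 1 := by ring
        omega
      rw [this]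
      nlinarith
    calc q ^ (2 * k) * (fq q k * fq q (k + 1)) ≤ q ^ (2 * k) * (q ^ (k + 2) * q ^ (k + 3)) :=
          Nat.mul_le_mul_left _ hf1
      _ = q ^ (4 * k + 5) := by rw [← pow_add, ← pow_add]; congr 1; omega
      _ ≤ q ^ (5 * e + 3) := Nat.pow_le_pow_right hq1 he
      _ = (q ^ e) ^ 5 * q ^ 3 := by rw [← pow_mul, ← pow_add]; congr 1; omega
      _ ≤ _ := Nat.mul_le_mul_left _ h3

/-- the order of the centraliser of a fundamental involution against the minimal index -/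
theorem num_card {F : Type} [Field F] [Fintype F] {q k P : ℕ} (hF : Fintype.card F = q ^ 2) (hq : 3 ≤ q) (hk : 3 ≤ k)
    (hP : (k = 3 ∧ q = 5 ∧ P = 50) ∨ ∃ e, P = q ^ e ∧ 4 * k + 5 ≤ 5 * e + 3) :
    Nat.card (SU (k + 2) F q) ≤ P ^ 5 * (Nat.card (SU 2 F q) * Nat.card (SU k F q) * (q + 1)) := by
  have h2 := Cfsg.Agent.S0278.result hF 2 (by norm_num)
  have hkk := Cfsg.Agent.S0278.result hF k (by omega)
  have hk2 := Cfsg.Agent.S0278.result hF (k + 2) (by omega)
  have hn := num hq hk hP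
  rw [Finset.prod_range_succ, Finset.prod_range_succ] at hk2
  have hfe : ∀ i, (if Even i then q ^ (i + 1) + 1 else q ^ (i + 1) - 1) = fq q i := fun i => rfl
  rw [hfe k, hfe (k + 1)] at hk2
  have h2' : (q + 1) * Nat.card (SU 2 F q) = q * ((q + 1) * (q ^ 2 - 1)) := by
    rw [h2, Finset.prod_range_succ, Finset.prod_range_succ, Finset.prod_range_zero]
    have h0 : Even 0 := by decide
    have h1 : ¬ Even 1 := by decide
    rw [if_pos h0, if_neg h1]
    norm_num
  have he : (k + 2) * (k + 2 - 1) / 2 = k * (k - 1) / 2 + (2 * k + 1) := by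
    obtain ⟨r, rfl⟩ : ∃ r, k = r + 1 := ⟨k - 1, by omega⟩
    have e1 : (r + 1 + 2) * (r + 1 + 2 - 1) = (r + 1) * (r + 1 - 1) + (2 * (r + 1) + 1) * 2 := by
      simp only [Nat.add_sub_cancel]
      have : r + 1 + 2 - 1 = r + 2 := by omega
      rw [this]
      ring
    rw [e1, Nat.add_mul_div_right _ _ (by norm_num)]
  rw [he] at hk2
  set Q := ∏ i ∈ Finset.range k, (if Even i then q ^ (i + 1) + 1 else q ^ (i + 1) - 1) with hQ
  set N := q ^ (k * (k - 1) / 2) with hN
  refine Nat.le_of_mul_le_mul_left ?_ (by omega : 0 < q + 1)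
  rw [hk2, pow_add]
  calc N * q ^ (2 * k + 1) * (Q * fq q k * fq q (k + 1)) = (q * (N * Q)) * (q ^ (2 * k) * (fq q k * fq q (k + 1))) := by
        rw [pow_succ]; ring
    _ ≤ (q * (N * Q)) * (P ^ 5 * ((q + 1) * (q ^ 2 - 1))) := Nat.mul_le_mul_left _ hn
    _ = P ^ 5 * ((q * ((q + 1) * (q ^ 2 - 1))) * (N * Q)) := by ring
    _ = P ^ 5 * (((q + 1) * Nat.card (SU 2 F q)) * ((q + 1) * Nat.card (SU k F q))) := by rw [h2', hkk]
    _ = _ := by ring

/-! ### The centraliser -/

section cent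

variable {F : Type} [Field F] [Fintype F] {q k : ℕ}

/-- elements preserving the plane commute with `z` -/
theorem comm_of_pres (hF : Fintype.card F = q ^ 2) {n : ℕ} {b : Fin 2 → (Fin n → F)} (hb : ON q b) {z : SU n F q}
    (hz : FdOf b z) {g : SU n F q} (hg : ∀ c, ∃ d, act g (Im b *ᵥ c) = Im b *ᵥ d) : z * g = g * z := by
  choose f hf using hg
  have hinj : Function.Injective f := by
    intro c c' h
    have h1 : act g (Im b *ᵥ c) = act g (Im b *ᵥ c') := by rw [hf, hf, h]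
    exact Im_injective hb (act_injective g h1)
  have hsur := Finite.injective_iff_surjective.1 hinj
  apply ext_act
  intro v
  obtain ⟨c, w, hw, rfl⟩ := decomp hb v
  have hgw : ∀ i, hermForm n F q (act g w) (b i) = 0 := by
    intro i
    obtain ⟨d, hd⟩ := hsur (Pi.single i 1)
    have e : b i = act g (Im b *ᵥ d) := by
      rw [hf, hd, Im_mulVec, Finset.sum_eq_single i, Pi.single_eq_same, one_smul]
      · intro j _ hj
        rw [Pi.single_eq_of_ne hj, zero_smul]
      · intro h'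
        exact absurd (Finset.mem_univ _) h'
    rw [e, herm_act]
    exact herm_Im_perp hF b d hw
  rw [act_mul, act_mul, act_add, act_add, act_add, act_add, hz.1, hz.2 w hw, hz.2 _ hgw, hf, hz.1, act_neg, hf]

/-- a torus element of `GU_2 × GU_k`, of determinant one -/
theorem exists_tor (hF : Fintype.card F = q ^ 2) {b : Fin 2 → (Fin (k + 2) → F)} (hb : ON q b) {c : Fin (k + 2) → F}
    (hcc : hermForm (k + 2) F q c c = 1) (hbc : ∀ i, hermForm (k + 2) F q c (b i) = 0) {ζ : F} (hζ : ζ * ζ ^ q = 1) :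
    ∃ t : SU (k + 2) F q, ∀ v, act t (Im b *ᵥ v) = Im b *ᵥ (Matrix.diagonal ![ζ, 1] *ᵥ v) := by
  have hζ0 : ζ ≠ 0 := by
    rintro rfl
    rw [zero_mul] at hζ
    exact zero_ne_one hζ
  have hd : ON q (![b 0, c] : Fin 2 → (Fin (k + 2) → F)) := by
    intro i j
    fin_cases i <;> fin_cases j
    · exact hb 0 0
    · exact herm_eq_zero_swap hF (hbc 0)
    · exact hbc 0
    · exact hcc
  have hdet : (Matrix.diagonal ![ζ, ζ⁻¹] : Matrix (Fin 2) (Fin 2) F).det = 1 := by
    rw [Matrix.det_diagonal, Fin.prod_univ_two]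
    exact mul_inv_cancel₀ hζ0
  let T : SU 2 F q := mkSU (Matrix.diagonal ![ζ, ζ⁻¹]) hdet (by
    intro u v
    rw [herm_def, herm_def, Fin.sum_univ_two, Fin.sum_univ_two]
    simp only [Matrix.mulVec_diagonal, Matrix.cons_val_zero, Matrix.cons_val_one, mul_pow, inv_pow]
    have h1 : ζ⁻¹ * (ζ ^ q)⁻¹ = 1 := by rw [← _root_.mul_inv, hζ, inv_one]
    linear_combination (u 0 * v 0 ^ q) * hζ + (u 1 * v 1 ^ q) * h1)
  refine ⟨phi hF hd T, fun v => ?_⟩
  have e0 : act (phi hF hd T) (b 0) = ζ • b 0 := by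
    have h1 : b 0 = Im (![b 0, c] : Fin 2 → (Fin (k + 2) → F)) *ᵥ ![1, 0] := by
      rw [Im_mulVec, Fin.sum_univ_two]
      simp
    have h2 : act T ![1, 0] = ζ • ![1, 0] := by
      show Matrix.diagonal ![ζ, ζ⁻¹] *ᵥ ![1, 0] = ζ • ![1, 0]
      ext i
      rw [Matrix.mulVec_diagonal]
      fin_cases i <;> simp
    have h3 := phi_Im hF hd T ![1, 0]
    rw [h2, mulVec_smul, ← h1] at h3
    exact h3
  have e1 : act (phi hF hd T) (b 1) = b 1 := by
    apply phi_perp
    intro i
    fin_cases i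
    · have := hb 1 0
      rw [if_neg (by decide)] at this
      exact this
    · exact herm_eq_zero_swap hF (hbc 1)
  rw [Im_mulVec, Im_mulVec, Fin.sum_univ_two, Fin.sum_univ_two, act_add, act_smul, act_smul, e0, e1,
    Matrix.mulVec_diagonal, Matrix.mulVec_diagonal]
  simp only [Matrix.cons_val_zero, Matrix.cons_val_one, one_mul, smul_smul, mul_comm]

/-- `|C(z)| ≥ |SU_2| |SU_k| (q + 1)` -/
theorem card_cent (hF : Fintype.card F = q ^ 2) (hk : 1 ≤ k) {b : Fin 2 → (Fin (k + 2) → F)} (hb : ON q b)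
    {z : SU (k + 2) F q} (hz : FdOf b z) {c : Fin k → (Fin (k + 2) → F)} (hc : ON q c)
    (hbc : ∀ i j, hermForm (k + 2) F q (c j) (b i) = 0) :
    Nat.card (SU 2 F q) * Nat.card (SU k F q) * (q + 1) ≤ Nat.card (centralizer ({z} : Set (SU (k + 2) F q))) := by
  let j0 : Fin k := ⟨0, by omega⟩
  have hcc : hermForm (k + 2) F q (c j0) (c j0) = 1 := by rw [hc, if_pos rfl]
  choose t ht using fun ζ : {ζ : F // ζ * ζ ^ q = 1} => exists_tor hF hb hcc (fun i => hbc i j0) ζ.2
  have hbc' : ∀ v j, hermForm (k + 2) F q (Im b *ᵥ v) (c j) = 0 := fun v j =>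
    herm_eq_zero_swap hF (herm_Im_perp hF b v fun i => hbc i j)
  have hf : ∀ (y : SU 2 F q) (x : SU k F q) (ζ : {ζ : F // ζ * ζ ^ q = 1}) (v : Fin 2 → F),
      act (phi hF hb y * phi hF hc x * t ζ) (Im b *ᵥ v) = Im b *ᵥ ((mat y * Matrix.diagonal ![ζ.1, 1]) *ᵥ v) := by
    intro y x ζ v
    rw [act_mul, act_mul, ht, phi_perp hF hc x (hbc' _), phi_Im, act_def, ← mulVec_mulVec v (mat y)]
  let f : (SU 2 F q × SU k F q) × {ζ : F // ζ * ζ ^ q = 1} → centralizer ({z} : Set (SU (k + 2) F q)) := fun a =>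
    ⟨phi hF hb a.1.1 * phi hF hc a.1.2 * t a.2, by
      rw [mem_centralizer_iff]
      rintro _ rfl
      exact comm_of_pres hF hb hz fun c => ⟨_, hf _ _ _ c⟩⟩
  have hfi : Function.Injective f := by
    rintro ⟨⟨y, x⟩, ζ⟩ ⟨⟨y', x'⟩, ζ'⟩ h
    have h1 : phi hF hb y * phi hF hc x * t ζ = phi hF hb y' * phi hF hc x' * t ζ' := congrArg Subtype.val h
    have h2 : ∀ v, (mat y * Matrix.diagonal ![ζ.1, 1]) *ᵥ v = (mat y' * Matrix.diagonal ![ζ'.1, 1]) *ᵥ v := by
      intro v
      apply Im_injective hb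
      show Im b *ᵥ _ = Im b *ᵥ _
      rw [← hf y x, ← hf y' x', h1]
    have h3 : mat y * Matrix.diagonal ![ζ.1, 1] = mat y' * Matrix.diagonal ![ζ'.1, 1] :=
      Matrix.ext_of_mulVec_single fun i => h2 _
    have h4 : ζ.1 = ζ'.1 := by
      have := congrArg Matrix.det h3
      rw [det_mul, det_mul, det_mat, det_mat, det_diagonal, det_diagonal, Fin.prod_univ_two, Fin.prod_univ_two] at this
      simpa using this
    have hζ0 : ζ.1 ≠ 0 := by
      intro h0
      have := ζ.2
      rw [h0, zero_mul] at this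
      exact zero_ne_one this
    have h5 : ζ = ζ' := Subtype.ext h4
    subst h5
    have h6 : mat y = mat y' := by
      have hD : IsUnit (Matrix.diagonal ![ζ.1, 1] : Matrix (Fin 2) (Fin 2) F) := by
        rw [Matrix.isUnit_iff_isUnit_det, det_diagonal, Fin.prod_univ_two]
        simpa using hζ0
      exact hD.mul_right_cancel h3
    have h7 : y = y' := mat_injective h6
    subst h7
    have h8 := mul_left_cancel (mul_right_cancel h1)
    have h9 : x = x' := phi_injective hF hc h8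
    subst h9
    rfl
  have h1 := Nat.card_le_card_of_injective f hfi
  rw [Nat.card_prod, Nat.card_prod, card_norm_eq_one hF] at h1
  exact h1

end cent

/-! ### The final step -/

theorem not_comm {F : Type} [Field F] [Fintype F] {q m : ℕ} (hF : Fintype.card F = q ^ 2) (hm : 5 ≤ m) :
    ∃ a b : PSU m F q, a * b ≠ b * a := by
  by_contra hcon
  push Not at hcon
  apply Cfsg.Agent.LieClassical.HermSimple.center_ne_top (q := q) hF (by omega : 3 ≤ m)
  rw [eq_top_iff, ← Cfsg.Agent.LieClassical.HermPerfect.commutator_SU_eq_top hF (by omega) (by omega),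
    _root_.commutator_def, commutator_le]
  intro g _ h _
  have h1 := hcon (pr m F q g) (pr m F q h)
  rw [← pr_eq_one_iff, commutatorElement_def, map_mul, map_mul, map_mul, h1, map_inv, map_inv]
  group

variable {F : Type} [Field F] [Fintype F] {q m : ℕ}

/-- `SU(b^⊥) ≤ pi⁻¹ A` -/
theorem range_le (hF : Fintype.card F = q ^ 2) (hq : 3 ≤ q) {k : ℕ} (hk : 3 ≤ k) {A : Subgroup (PSU (k + 2) F q)}
    {Γ : Subgroup (MulAut (PSU (k + 2) F q))} (h : IF A Γ) {b : Fin 2 → (Fin (k + 2) → F)} (hb : ON q b)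
    {z : SU (k + 2) F q} (hz : FdOf b z) (hzA : pr (k + 2) F q z ∈ A) (hz1 : pr (k + 2) F q z ≠ 1)
    {c : Fin k → (Fin (k + 2) → F)} (hc : ON q c) (hbc : ∀ i j, hermForm (k + 2) F q (c j) (b i) = 0) :
    (phi hF hc).range ≤ A.comap (pr (k + 2) F q) := by
  have hs : IsSimpleGroup (PSU (k + 2) F q) := Cfsg.Agent.LieClassical.HermSimple.isSimpleGroup_of_perfect hF (by omega)
    (Cfsg.Agent.LieClassical.HermPerfect.commutator_SU_eq_top hF (by omega) (by omega))
  have hfin : Finite (PSU (k + 2) F q) := Quotient.finite _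
  obtain ⟨P, hP, hPn⟩ := exists_P hF hq hk
  have hzz : z * z = 1 := by
    apply ext_act
    intro v
    obtain ⟨d, w, hw, rfl⟩ := decomp hb v
    rw [act_mul, act_add, act_add, hz.1, hz.2 w hw, act_neg, hz.1, hz.2 w hw, neg_neg, act_one]
  have hbc' : ∀ v j, hermForm (k + 2) F q (Im b *ᵥ v) (c j) = 0 := fun v j =>
    herm_eq_zero_swap hF (herm_Im_perp hF b v fun i => hbc i j)
  have h2 := Cfsg.Agent.H847.IF.lift_E2_card h (not_comm hF (by omega)) (pr (k + 2) F q) pr_surjective (t := z) hzA hz1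
    (by rw [hzz, map_one]) (B := (phi hF hc).range) (by
      rintro _ ⟨x, rfl⟩
      rw [comm_of_pres hF hb hz fun v => ⟨v, phi_perp hF hc x (hbc' v)⟩])
  rw [← index_comap] at h2
  have hX : (A.comap (pr (k + 2) F q)).comap (phi hF hc) = ⊤ := by
    by_contra hne
    have h3 := min_index_lift (Cfsg.Agent.LieClassical.HermPerfect.commutator_SU_eq_top hF hk (by omega)) hP _ hne
    have h4 := num_card hF hq hk hPn
    have h5 := card_cent hF (by omega) hb hz hc hbc
    have h6 : P ^ 5 * (Nat.card (SU 2 F q) * Nat.card (SU k F q) * (q + 1)) ≤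
        ((A.comap (pr (k + 2) F q)).comap (phi hF hc)).index ^ 5 *
          Nat.card (centralizer ({z} : Set (SU (k + 2) F q))) :=
      Nat.mul_le_mul (Nat.pow_le_pow_left h3 5) h5
    omega
  rintro _ ⟨x, rfl⟩
  have h7 : x ∈ (A.comap (pr (k + 2) F q)).comap (phi hF hc) := by rw [hX]; trivial
  exact h7

/-- fundamental elements are not central -/
theorem pr_ne_one (hF : Fintype.card F = q ^ 2) (ho : Odd q) {k : ℕ} (hk : 1 ≤ k) {b : Fin 2 → (Fin (k + 2) → F)}
    (hb : ON q b) {z : SU (k + 2) F q} (hz : FdOf b z) : pr (k + 2) F q z ≠ 1 := by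
  intro h1
  have h2F := two_ne hF ho
  rw [pr_eq_one_iff] at h1
  obtain ⟨c, hc, hbc, -⟩ := exists_compl hF hb (by omega : 2 + k = k + 2)
  let j0 : Fin k := ⟨0, by omega⟩
  have hb0 : hermForm (k + 2) F q (b 0) (b 0) = 1 := by rw [hb, if_pos rfl]
  have hc0 : hermForm (k + 2) F q (c j0) (c j0) = 1 := by rw [hc, if_pos rfl]
  obtain ⟨g, hg⟩ := su_trans hF ho (by omega : 3 ≤ k + 2) (hb0.trans hc0.symm) (by rw [hb0]; exact one_ne_zero)
  have h2 := congrArg (fun y => act y (b 0)) (mem_center_iff.1 h1 g)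
  simp only [act_mul] at h2
  have h3 : act z (b 0) = -(b 0) := by
    have e : b 0 = Im b *ᵥ Pi.single 0 1 := by
      rw [Im_mulVec, Fin.sum_univ_two]
      simp
    have := hz.1 (Pi.single 0 1)
    rwa [← e] at this
  rw [h3, act_neg, hg, hz.2 (c j0) fun i => hbc i j0] at h2
  have h4 : (2 : F) • c j0 = 0 := by
    rw [two_smul]
    nth_rewrite 1 [← h2]
    exact neg_add_cancel _
  have h5 := (smul_eq_zero.1 h4).resolve_left h2F
  rw [h5, herm_zero_left] at hc0
  exact zero_ne_one hc0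

/-- a fundamental element in `SU(b^⊥)` -/
theorem exists_fd (hF : Fintype.card F = q ^ 2) {n k : ℕ} {c : Fin k → (Fin n → F)} (hc : ON q c)
    {i0 i1 : Fin k} (h01 : i0 ≠ i1) : ∃ z ∈ (phi hF hc).range,
      ON q (![c i0, c i1] : Fin 2 → (Fin n → F)) ∧ FdOf (![c i0, c i1] : Fin 2 → (Fin n → F)) z := by
  have he : ON q (![Pi.single i0 1, Pi.single i1 1] : Fin 2 → (Fin k → F)) := by
    intro i j
    fin_cases i <;> fin_cases j
    · show hermForm k F q (Pi.single i0 1) (Pi.single i0 1) = 1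
      rw [herm_single_right hF, Pi.single_eq_same, one_pow, mul_one]
    · show hermForm k F q (Pi.single i0 1) (Pi.single i1 1) = 0
      rw [herm_single_right hF, Pi.single_eq_of_ne h01.symm, zero_mul]
    · show hermForm k F q (Pi.single i1 1) (Pi.single i0 1) = 0
      rw [herm_single_right hF, Pi.single_eq_of_ne h01, zero_mul]
    · show hermForm k F q (Pi.single i1 1) (Pi.single i1 1) = 1
      rw [herm_single_right hF, Pi.single_eq_same, one_pow, mul_one]
  have hb : ON q (![c i0, c i1] : Fin 2 → (Fin n → F)) := by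
    intro i j
    fin_cases i <;> fin_cases j
    · show hermForm n F q (c i0) (c i0) = 1
      rw [hc, if_pos rfl]
    · show hermForm n F q (c i0) (c i1) = 0
      rw [hc, if_neg h01]
    · show hermForm n F q (c i1) (c i0) = 0
      rw [hc, if_neg h01.symm]
    · show hermForm n F q (c i1) (c i1) = 1
      rw [hc, if_pos rfl]
  let N : SU 2 F q := mkSU (-1) (by rw [Matrix.det_neg, Matrix.det_one]; norm_num) (by
    intro u v
    rw [neg_mulVec, neg_mulVec, one_mulVec, one_mulVec, herm_neg_left, herm_neg_right hF, neg_neg])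
  have hN : ∀ v, act N v = -v := by
    intro v
    show (-1 : Matrix (Fin 2) (Fin 2) F) *ᵥ v = -v
    rw [neg_mulVec, one_mulVec]
  refine ⟨phi hF hc (phi hF he N), ⟨_, rfl⟩, hb, ?_, ?_⟩
  · intro v
    have e : Im (![c i0, c i1] : Fin 2 → (Fin n → F)) *ᵥ v =
        Im c *ᵥ (Im (![Pi.single i0 1, Pi.single i1 1] : Fin 2 → (Fin k → F)) *ᵥ v) := by
      rw [Im_mulVec, Im_mulVec (![Pi.single i0 1, Pi.single i1 1] : Fin 2 → (Fin k → F)), Fin.sum_univ_two,
        Fin.sum_univ_two, mulVec_add, mulVec_smul, mulVec_smul]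
      have hs : ∀ i, Im c *ᵥ Pi.single i 1 = c i := by
        intro i
        rw [Im_mulVec, Finset.sum_eq_single i, Pi.single_eq_same, one_smul]
        · intro j _ hj
          rw [Pi.single_eq_of_ne hj, zero_smul]
        · intro h'
          exact absurd (Finset.mem_univ _) h'
      simp only [Matrix.cons_val_zero, Matrix.cons_val_one, hs]
    rw [e, phi_Im, phi_Im, hN, mulVec_neg, mulVec_neg]
  · intro v hv
    obtain ⟨y, w, hw, rfl⟩ := decomp hc v
    have hy : ∀ i, hermForm n F q (Im c *ᵥ y + w) (c i) = y i := by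
      intro i
      rw [herm_add_left, hw, add_zero, ← Pm_mulVec, Pm_Im_mulVec hc]
    rw [act_add, phi_Im, phi_perp hF hc _ hw]
    congr 2
    apply phi_perp
    intro i
    fin_cases i
    · show hermForm k F q y (Pi.single i0 1) = 0
      rw [herm_single_right hF, ← hy i0]
      have h1 : hermForm n F q (Im c *ᵥ y + w) (c i0) = 0 := hv 0
      rw [h1, zero_mul]
    · show hermForm k F q y (Pi.single i1 1) = 0
      rw [herm_single_right hF, ← hy i1]
      have h1 : hermForm n F q (Im c *ᵥ y + w) (c i1) = 0 := hv 1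
      rw [h1, zero_mul]

/-- **The final step.** A counterexample in `PSU_m(q)`, `q` odd, `m ≥ 5`, has no fundamental involution in `A`. -/
theorem final_su (hF : Fintype.card F = q ^ 2) (ho : Odd q) (hm : 5 ≤ m) {A : Subgroup (PSU m F q)}
    {Γ : Subgroup (MulAut (PSU m F q))} (h : IF A Γ) {z : SU m F q} (hz : Fd z)
    (hzA : (QuotientGroup.mk z : PSU m F q) ∈ A) : False := by
  obtain ⟨k, rfl⟩ : ∃ k, m = k + 2 := ⟨m - 2, by omega⟩
  have hk : 3 ≤ k := by omega
  have hq : 3 ≤ q := by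
    have := two_le hF
    rcases ho with ⟨r, rfl⟩
    omega
  obtain ⟨b, hb, hbz⟩ := hz
  obtain ⟨c, hc, hbc, hcb⟩ := exists_compl hF hb (by omega : 2 + k = k + 2)
  have h1 := range_le hF hq hk h hb hbz hzA (pr_ne_one hF ho (by omega) hb hbz) hc hbc
  obtain ⟨z', hz', hb', hbz'⟩ := exists_fd hF hc (i0 := ⟨0, by omega⟩) (i1 := ⟨1, by omega⟩) (by simp)
  obtain ⟨c', hc', hbc', hcb'⟩ := exists_compl hF hb' (by omega : 2 + k = k + 2)
  have h2 := range_le hF hq hk h hb' hbz' (h1 hz') (pr_ne_one hF ho (by omega) hb' hbz') hc' hbc'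
  have h3 := gen hF ho hk hb hc hbc hcb hc' (hbc' 0) (fun v hv0 hv1 => hcb' v (by
    intro i
    fin_cases i
    · exact hv0
    · exact hv1)) h1 h2
  apply h.ne_top
  rw [← Subgroup.map_comap_eq_self_of_surjective (pr_surjective (F := F) (q := q) (n := k + 2)) A, h3]
  exact Subgroup.map_top_of_surjective _ pr_surjective

end Cfsg.Agent.H346.SUFin
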