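import Cfsg.Agent.H411.IFU.Defs
import Cfsg.Agent.LieClassical.HermPerfect

/-!
# S5719, `SU_m(q)`, `q` odd: the final step, geometry (helper346)

* `su_trans` : `SU_k(q)`, `k ≥ 3`, is transitive on the vectors of a given nonzero norm.
* `exists_compl` : an orthonormal system has an orthonormal complement.
* `gen` : `SU(b^⊥)` and `SU(b'^⊥)`, `b ⊥ b'` orthonormal pairs, generate `SU_m(q)`, `m ≥ 5`.
-/

set_option autoImplicit false
set_option linter.unusedSectionVars false

namespace Cfsg.Agent.H346.SUFin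

open Matrix Subgroup Module Cfsg
open Cfsg.Agent.LieClassical.HermBasic Cfsg.Agent.LieClassical.HermSiegel Cfsg.Agent.LieClassical.HermGen
open Cfsg.Agent.ClassicalGeometry.PSUAutBasic Cfsg.Agent.ClassicalGeometry.HermOrtho
open Cfsg.Agent.H189.SN (ON Im phi Pm phi_Im phi_perp phi_injective Im_mulVec decomp herm_Im herm_Im_perp Im_injective
  Pm_mulVec Pm_Im_mulVec pM pM_iso pM_det pM_mulVec pM_Im pM_perp)
open Cfsg.Agent.H411.IFU (Fd FdOf)

variable {F : Type*} [Field F] [Fintype F] {q n m k : ℕ}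

theorem two_ne (hF : Fintype.card F = q ^ 2) (ho : Odd q) : (2 : F) ≠ 0 := by
  intro h2
  have h3 : ringChar F = 2 := by
    have h4 : ringChar F ∣ 2 := (ringChar.spec F 2).1 (by exact_mod_cast h2)
    have h5 : ringChar F ≠ 1 := CharP.ringChar_ne_one
    rcases (Nat.dvd_prime Nat.prime_two).1 h4 with h | h
    · exact absurd h h5
    · exact h
  have h4 := FiniteField.even_card_iff_char_two.1 h3
  rw [hF] at h4
  have h5 : Odd (q ^ 2) := ho.pow
  rw [Nat.odd_iff] at h5
  omega

/-- an isotropic vector with a given nonzero product with `v` -/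
theorem exists_iso_prod (hF : Fintype.card F = q ^ 2) (ho : Odd q) (hk : 2 ≤ k) {v : Fin k → F} (hv : v ≠ 0) {a : F} :
    ∃ p : Fin k → F, hermForm k F q p p = 0 ∧ hermForm k F q v p = a := by
  have h2 := two_ne hF ho
  obtain ⟨ε, hε⟩ := exists_norm_eq hF (c := (-1 : F)) (by rw [neg_pow_q hF, one_pow])
  obtain ⟨i, hi⟩ : ∃ i, v i ≠ 0 := by
    by_contra hcon
    push Not at hcon
    exact hv (funext hcon)
  obtain ⟨j, hij⟩ : ∃ j : Fin k, j ≠ i := by
    have : Nontrivial (Fin k) := Fin.nontrivial_iff_two_le.2 hk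
    exact exists_ne i
  have key : ∀ ε : F, ε * ε ^ q = -1 → hermForm k F q (Pi.single i 1 + Pi.single j ε) (Pi.single i 1 + Pi.single j ε) = 0 := by
    intro ε hε
    rw [herm_add_right hF, herm_single_right hF, herm_single_right hF]
    simp only [Pi.add_apply, Pi.single_eq_same, Pi.single_eq_of_ne hij, Pi.single_eq_of_ne hij.symm, add_zero, zero_add,
      one_pow, mul_one]
    rw [hε]
    ring
  have hp : ∀ ε : F, hermForm k F q v (Pi.single i 1 + Pi.single j ε) = v i + v j * ε ^ q := by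
    intro ε
    rw [herm_add_right hF, herm_single_right hF, herm_single_right hF, one_pow, mul_one]
  obtain ⟨p, hp0, hp1⟩ : ∃ p : Fin k → F, hermForm k F q p p = 0 ∧ hermForm k F q v p ≠ 0 := by
    by_contra hcon
    push Not at hcon
    have h3 := hcon _ (key ε hε)
    have h4 := hcon _ (key (-ε) (by rw [neg_pow_q hF, neg_mul_neg, hε]))
    rw [hp] at h3 h4
    rw [neg_pow_q hF] at h4
    apply hi
    have h5 : 2 * v i = 0 := by linear_combination h3 + h4
    exact (mul_eq_zero.1 h5).resolve_left h2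
  refine ⟨(a / hermForm k F q v p) ^ q • p, ?_, ?_⟩
  · rw [herm_smul_left, herm_smul_right, hp0, mul_zero, mul_zero]
  · rw [herm_smul_right, pow_q_pow_q hF, div_mul_cancel₀ _ hp1]

/-- a nonisotropic vector in terms of a hyperbolic pair -/
theorem exists_hyp_of (hF : Fintype.card F = q ^ 2) (ho : Odd q) (hk : 2 ≤ k) {v : Fin k → F} {a : F} (ha : a ≠ 0)
    (hv0 : v ≠ 0) (hv : a + a ^ q = hermForm k F q v v) :
    ∃ p p' : Fin k → F, hermForm k F q p p = 0 ∧ hermForm k F q p' p' = 0 ∧ hermForm k F q p p' = 1 ∧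
      v = p + a • p' := by
  obtain ⟨p, hp0, hp1⟩ := exists_iso_prod hF ho hk hv0 (a := a)
  have haq : a ^ q ≠ 0 := pow_ne_zero _ ha
  have hpv : hermForm k F q p v = a ^ q := by rw [herm_swap hF v p, hp1]
  refine ⟨p, a⁻¹ • (v - p), hp0, ?_, ?_, ?_⟩
  · rw [herm_smul_left, herm_smul_right, herm_sub_left, herm_sub_right hF, herm_sub_right hF, hp0, hp1, hpv, ← hv]
    ring
  · rw [herm_smul_right, herm_sub_right hF, hp0, hpv, sub_zero, inv_pow, inv_mul_cancel₀ haq]
  · rw [smul_smul, mul_inv_cancel₀ ha, one_smul]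
    abel

/-- **Transitivity on nonisotropic vectors.** -/
theorem su_trans (hF : Fintype.card F = q ^ 2) (ho : Odd q) (hk : 3 ≤ k) {v v' : Fin k → F}
    (hN : hermForm k F q v v = hermForm k F q v' v') (h0 : hermForm k F q v v ≠ 0) :
    ∃ g : SU k F q, act g v = v' := by
  obtain ⟨a, ha⟩ := exists_trace_eq hF (c := hermForm k F q v v) (herm_self_pow hF v)
  have ha0 : a ≠ 0 := by
    rintro rfl
    rw [zero_pow_q hF, add_zero] at ha
    exact h0 ha.symm
  have hv0 : v ≠ 0 := by
    rintro rfl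
    exact h0 (herm_zero_left _)
  have hv0' : v' ≠ 0 := by
    rintro rfl
    exact h0 (by rw [hN, herm_zero_left])
  obtain ⟨p, p', hp, hp', hpp, rfl⟩ := exists_hyp_of hF ho (by omega) ha0 hv0 ha
  obtain ⟨r, r', hr, hr', hrr, rfl⟩ := exists_hyp_of hF ho (by omega) ha0 hv0' (ha.trans hN)
  obtain ⟨g, -, hg, hg'⟩ := exists_map_hyp hF hk le_rfl (mem_coordSub_top p) (mem_coordSub_top p')
    (mem_coordSub_top r) (mem_coordSub_top r') hp hp' hpp hr hr' hrr
  exact ⟨g, by rw [act_add, act_smul, hg, hg']⟩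

/-- Transitivity on isotropic vectors. -/
theorem su_trans_iso (hF : Fintype.card F = q ^ 2) (hk : 3 ≤ k) {v v' : Fin k → F} (h1 : hermForm k F q v v = 0)
    (h1' : hermForm k F q v' v' = 0) (h0 : v ≠ 0) (h0' : v' ≠ 0) : ∃ g : SU k F q, act g v = v' := by
  obtain ⟨g, -, hg⟩ := exists_map_iso hF hk le_rfl (mem_coordSub_top v) (mem_coordSub_top v') h0 h0' h1 h1'
  exact ⟨g, hg⟩

/-- orthonormal complement -/
theorem exists_compl (hF : Fintype.card F = q ^ 2) {b : Fin m → (Fin n → F)} (hb : ON q b) (hn : m + k = n) :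
    ∃ c : Fin k → (Fin n → F), ON q c ∧ (∀ i j, hermForm n F q (c j) (b i) = 0) ∧
      ∀ v, (∀ i, hermForm n F q v (b i) = 0) → ∃ y, v = Im c *ᵥ y := by
  let W : Submodule F (Fin n → F) := Submodule.span F (Set.range b)
  have hli := linearIndependent_of_orthonormal hb
  have hWr : finrank F W = m := by
    rw [finrank_span_eq_card hli, Fintype.card_fin]
  have hbW : ∀ i, b i ∈ W := fun i => Submodule.subset_span ⟨i, rfl⟩
  have hW : ∀ u ∈ W, (∀ v ∈ W, hermForm n F q u v = 0) → u = 0 := by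
    intro u hu h
    rw [eq_sum_of_orthonormal W (by rw [hWr, Fintype.card_fin]) hbW hb hu]
    exact Finset.sum_eq_zero fun i _ => by rw [h _ (hbW i), zero_smul]
  have hr := finrank_hermPerp_of_nondeg hF W hW
  have hk : finrank F (hermPerp q (W : Set (Fin n → F)) : Submodule F (Fin n → F)) = k := by omega
  obtain ⟨c, hc, hcc⟩ := exists_orthonormal hF _ (hermPerp_nondeg hF W hW) hk
  refine ⟨c, hcc, fun i j => hc j _ (hbW i), fun v hv => ?_⟩
  have hvW : v ∈ hermPerp q (W : Set (Fin n → F)) := by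
    intro w hw
    induction hw using Submodule.span_induction with
    | mem x hx => obtain ⟨i, rfl⟩ := hx; exact hv i
    | zero => exact herm_zero_right hF v
    | add x y _ _ hx hy => rw [herm_add_right hF, hx, hy, add_zero]
    | smul a x _ hx => rw [herm_smul_right, hx, mul_zero]
  refine ⟨fun i => hermForm n F q v (c i), ?_⟩
  rw [Im_mulVec]
  exact eq_sum_of_orthonormal _ (by rw [hk, Fintype.card_fin]) hc hcc hvW

/-- transvections with centre in the image of `c` -/
theorem siegel_mem_range (hF : Fintype.card F = q ^ 2) {c : Fin k → (Fin n → F)} (hc : ON q c) {y : Fin k → F} {μ : F}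
    (h : IsSiegel q (Im c *ᵥ y) 0 μ) : siegel hF (Im c *ᵥ y) 0 μ h ∈ (phi hF hc).range := by
  have h' : IsSiegel q y 0 μ := by
    refine ⟨?_, herm_zero_left _, ?_⟩
    · rw [← herm_Im hF hc]
      exact h.iso
    · have := h.tr
      rw [herm_zero_left] at this ⊢
      exact this
  refine ⟨siegel hF y 0 μ h', ?_⟩
  apply ext_act
  intro v
  obtain ⟨d, w, hw, rfl⟩ := decomp hc v
  rw [act_add, phi_Im, phi_perp hF hc _ hw, act_siegel, act_siegel, herm_add_left, herm_Im hF hc,
    herm_Im_perp hF c y hw]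
  simp only [herm_zero_right hF, sub_zero, smul_zero, add_zero, mulVec_add, mulVec_smul]
  abel

/-- elements of `range phi` act on `Im c y + w`, `w ⊥ c` -/
theorem exists_move (hF : Fintype.card F = q ^ 2) {c : Fin k → (Fin n → F)} (hc : ON q c) {y y' : Fin k → F}
    (h : ∃ g : SU k F q, act g y = y') : ∃ g ∈ (phi hF hc).range, ∀ w : Fin n → F,
      (∀ i, hermForm n F q w (c i) = 0) → act g (w + Im c *ᵥ y) = w + Im c *ᵥ y' := by
  obtain ⟨g, hg⟩ := h
  exact ⟨phi hF hc g, ⟨g, rfl⟩, fun w hw => by rw [act_add, phi_Im, phi_perp hF hc _ hw, hg]⟩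

/-- A subgroup containing all transvections is everything. -/
theorem eq_top_of_tv (hF : Fintype.card F = q ^ 2) (hn : 3 ≤ n) (h32 : ¬ (n = 3 ∧ q = 2)) {X : Subgroup (SU n F q)}
    (hX : ∀ (u : Fin n → F) (μ : F) (h : IsSiegel q u 0 μ), siegel hF u 0 μ h ∈ X) : X = ⊤ := by
  have hN : ∀ (u : Fin n → F) (μ : F) (h : IsSiegel q u 0 μ), siegel hF u 0 μ h ∈ X.normalCore := by
    intro u μ h g
    rw [conj_siegel hF h g]
    have e : act g (0 : Fin n → F) = 0 := act_zero g
    rw [siegel_congr hF (h.map g) (by rw [← e]; exact h.map g) rfl e rfl]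
    exact hX _ _ _
  have hnc : ¬ X.normalCore ≤ Subgroup.center (SU n F q) := by
    intro hle
    obtain ⟨p, p', a, b, ha, -, -, hpp, hp'p', hpp'⟩ := exists_hyp_pair (q := q) hF
      (i := (⟨0, by omega⟩ : Fin n)) (j := ⟨1, by omega⟩) (by simp)
    have hp0 : p ≠ 0 := by
      rintro h
      rw [h, herm_zero_left] at hpp'
      exact zero_ne_one hpp'
    have hp'0 : p' ≠ 0 := by
      rintro h
      rw [h, herm_zero_right hF] at hpp'
      exact zero_ne_one hpp'
    have hp'p : hermForm n F q p' p = 1 := by rw [herm_swap hF p p', hpp', one_pow]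
    obtain ⟨κ, hκ0, hκ⟩ := exists_trace_zero_ne hF
    have hs : IsSiegel q p 0 κ := ⟨hpp, herm_zero_left p, by rw [herm_zero_left, add_zero]; exact hκ⟩
    obtain ⟨x, -, hx⟩ := exists_map_iso hF hn le_rfl (mem_coordSub_top p) (mem_coordSub_top p')
      hp0 hp'0 hpp hp'p'
    have hmem : siegel hF p 0 κ hs ∈ Subgroup.center (SU n F q) := hle (hN _ _ _)
    have hcomm := Subgroup.mem_center_iff.1 hmem x
    have h1 := congrArg (fun y => act y p) hcomm
    simp only [act_mul, act_siegel_self, hx] at h1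
    rw [act_siegel, hp'p, herm_zero_right hF] at h1
    simp only [smul_zero, add_zero, mul_one, sub_zero] at h1
    have h2 : κ • p = 0 := by
      have := congrArg (fun y => y - p') h1
      simpa using this.symm
    rcases smul_eq_zero.1 h2 with h | h
    · exact hκ0 h
    · exact hp0 h
  have h1 := Cfsg.Agent.LieClassical.HermPerfect.normal_eq_top hF hn h32 hnc
  rw [eq_top_iff, ← h1]
  exact X.normalCore_le

/-- **(GEN)** `b ⊥ b'` orthonormal pairs, `c`, `c'` orthonormal bases of `b^⊥`, `b'^⊥`: `SU(b^⊥)`, `SU(b'^⊥)` generate. -/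
theorem gen (hF : Fintype.card F = q ^ 2) (ho : Odd q) (hk : 3 ≤ k) {b : Fin 2 → (Fin (k + 2) → F)} (hb : ON q b)
    {c : Fin k → (Fin (k + 2) → F)} (hc : ON q c) (hbc : ∀ i j, hermForm (k + 2) F q (c j) (b i) = 0)
    (hcb : ∀ v, (∀ i, hermForm (k + 2) F q v (b i) = 0) → ∃ y, v = Im c *ᵥ y)
    {c' : Fin k → (Fin (k + 2) → F)} (hc' : ON q c')
    (hc0 : ∀ j, hermForm (k + 2) F q (c' j) (c ⟨0, by omega⟩) = 0)
    (hcb' : ∀ v, hermForm (k + 2) F q v (c ⟨0, by omega⟩) = 0 → hermForm (k + 2) F q v (c ⟨1, by omega⟩) = 0 →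
      ∃ y, v = Im c' *ᵥ y)
    {X : Subgroup (SU (k + 2) F q)} (h1 : (phi hF hc).range ≤ X) (h2 : (phi hF hc').range ≤ X) : X = ⊤ := by
  have h2F := two_ne hF ho
  set i0 : Fin k := ⟨0, by omega⟩ with hi0
  set i1 : Fin k := ⟨1, by omega⟩ with hi1
  set i2 : Fin k := ⟨2, by omega⟩ with hi2
  have h01 : i0 ≠ i1 := by simp [hi0, hi1]
  have h02 : i0 ≠ i2 := by simp [hi0, hi2]
  have h12 : i1 ≠ i2 := by simp [hi1, hi2]
  -- good vectors
  let S : (Fin (k + 2) → F) → Prop := fun u => ∀ (μ : F) (h : IsSiegel q u 0 μ), siegel hF u 0 μ h ∈ X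
  have hSc : ∀ y, S (Im c *ᵥ y) := fun y μ h => h1 (siegel_mem_range hF hc h)
  have hSc' : ∀ y, S (Im c' *ᵥ y) := fun y μ h => h2 (siegel_mem_range hF hc' h)
  have hSm : ∀ g ∈ X, ∀ u, S (act g u) → S u := by
    intro g hg u hS μ h
    have h3 := hS μ (by
      have := h.map g
      rw [act_zero] at this
      exact this)
    have h4 := conj_siegel hF h g
    have h5 : siegel hF (act g u) (act g 0) μ (h.map g) ∈ X := by
      have e : act g (0 : Fin (k + 2) → F) = 0 := act_zero g
      rw [siegel_congr hF (h.map g) (by rw [← e]; exact h.map g) rfl e rfl]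
      exact h3
    rw [← h4] at h5
    have h6 := X.mul_mem (X.mul_mem (X.inv_mem hg) h5) hg
    have h7 : g⁻¹ * (g * siegel hF u 0 μ h * g⁻¹) * g = siegel hF u 0 μ h := by group
    rwa [h7] at h6
  refine eq_top_of_tv hF (by omega) (by omega) fun u μ h => ?_
  refine (?_ : S u) μ h
  -- decomposition
  obtain ⟨x, w, hw, rfl⟩ := decomp hb u
  obtain ⟨y, rfl⟩ := hcb w hw
  have hbx : ∀ j, hermForm (k + 2) F q (Im b *ᵥ x) (c j) = 0 := by
    intro j
    exact herm_eq_zero_swap hF (herm_Im_perp hF b x fun i => hbc i j)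
  have hc1 : ∀ v i, hermForm (k + 2) F q (Im c *ᵥ v) (c i) = v i := by
    intro v i
    rw [← Pm_mulVec, Pm_Im_mulVec hc]
  have hiso := h.iso
  have hnorm : hermForm (k + 2) F q (Im b *ᵥ x + Im c *ᵥ y) (Im b *ᵥ x + Im c *ᵥ y) =
      hermForm 2 F q x x + hermForm k F q y y := by
    have e1 : hermForm (k + 2) F q (Im b *ᵥ x) (Im c *ᵥ y) = 0 := herm_Im_perp hF c y hbx
    rw [herm_add_left, herm_add_right hF, herm_add_right hF, e1, herm_eq_zero_swap hF e1, herm_Im hF hb, herm_Im hF hc]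
    ring
  rw [hnorm] at hiso
  -- a vector with zero coordinates 0, 1
  have hgood : ∀ z : Fin k → F, z i0 = 0 → z i1 = 0 → S (Im b *ᵥ x + Im c *ᵥ z) := by
    intro z hz0 hz1
    obtain ⟨y', hy'⟩ := hcb' (Im b *ᵥ x + Im c *ᵥ z) (by rw [herm_add_left, hbx, hc1, hz0, add_zero])
      (by rw [herm_add_left, hbx, hc1, hz1, add_zero])
    rw [hy']
    exact hSc' y'
  by_cases hy0 : y = 0
  · rw [hy0]
    exact hgood 0 rfl rfl
  by_cases hyy : hermForm k F q y y = 0
  · -- isotropic
    obtain ⟨α, hα⟩ := exists_norm_eq hF (c := (-1 : F)) (by rw [neg_pow_q hF, one_pow])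
    have hα0 : α ≠ 0 := by
      rintro rfl
      rw [zero_mul] at hα
      exact one_ne_zero (neg_eq_zero.1 hα.symm)
    let y' : Fin k → F := Pi.single i0 α + Pi.single i2 1
    have hy'y' : hermForm k F q y' y' = 0 := by
      rw [herm_add_right hF, herm_single_right hF, herm_single_right hF]
      simp only [y', Pi.add_apply, Pi.single_eq_same, Pi.single_eq_of_ne h02, Pi.single_eq_of_ne h02.symm, add_zero,
        zero_add, one_pow, mul_one]
      rw [hα]
      ring
    have hy'0 : y' ≠ 0 := by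
      intro h0
      have := congrFun h0 i0
      simp only [y', Pi.add_apply, Pi.single_eq_same, Pi.single_eq_of_ne h02, add_zero, Pi.zero_apply] at this
      exact hα0 this
    obtain ⟨g, hg, hgm⟩ := exists_move hF hc (su_trans_iso hF hk hyy hy'y' hy0 hy'0)
    refine hSm g (h1 hg) _ ?_
    rw [hgm _ hbx]
    -- now move with c'
    obtain ⟨z, hz⟩ := hcb' (Im b *ᵥ x + Im c *ᵥ Pi.single i2 1) (by
      rw [herm_add_left, hbx, hc1, Pi.single_eq_of_ne h02, add_zero]) (by
      rw [herm_add_left, hbx, hc1, Pi.single_eq_of_ne h12, add_zero])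
    obtain ⟨z', hz'⟩ := hcb' (Im c *ᵥ Pi.single i2 1) (by rw [hc1, Pi.single_eq_of_ne h02]) (by
      rw [hc1, Pi.single_eq_of_ne h12])
    have hs1 : hermForm k F q (Pi.single i2 1) (Pi.single i2 1) = 1 := by
      rw [herm_single_right hF, Pi.single_eq_same, one_pow, mul_one]
    have hxx : hermForm 2 F q x x = 0 := by
      rw [hyy, add_zero] at hiso
      exact hiso
    have hzz : hermForm k F q z z = 1 := by
      rw [← herm_Im hF hc', ← hz]
      have e1 : hermForm (k + 2) F q (Im b *ᵥ x) (Im c *ᵥ Pi.single i2 1) = 0 := herm_Im_perp hF c _ hbx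
      rw [herm_add_left, herm_add_right hF, herm_add_right hF, e1, herm_eq_zero_swap hF e1, herm_Im hF hb, herm_Im hF hc,
        hxx, hs1]
      ring
    have hzz' : hermForm k F q z' z' = 1 := by
      rw [← herm_Im hF hc', ← hz', herm_Im hF hc, hs1]
    obtain ⟨g', hg', hgm'⟩ := exists_move hF hc' (su_trans hF ho hk (hzz.trans hzz'.symm) (by rw [hzz]; exact one_ne_zero))
    refine hSm g' (h2 hg') _ ?_
    have e2 : Im b *ᵥ x + Im c *ᵥ y' = Im c *ᵥ Pi.single i0 α + Im c' *ᵥ z := by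
      rw [← hz]
      simp only [y', mulVec_add]
      abel
    have e3 : ∀ j, hermForm (k + 2) F q (Im c *ᵥ Pi.single i0 α) (c' j) = 0 := by
      intro j
      rw [Im_mulVec, Finset.sum_eq_single i0, Pi.single_eq_same, herm_smul_left, herm_eq_zero_swap hF (hc0 j), mul_zero]
      · intro i _ hi
        rw [Pi.single_eq_of_ne hi, zero_smul]
      · intro h'
        exact absurd (Finset.mem_univ _) h'
    rw [e2, hgm' _ e3, ← hz', ← mulVec_add]
    exact hSc _
  · -- nonisotropic
    obtain ⟨s, hs⟩ := exists_norm_eq hF (herm_self_pow hF y)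
    obtain ⟨g, hg, hgm⟩ := exists_move hF hc (su_trans hF ho hk (v' := Pi.single i2 s) (by
      rw [herm_single_right hF, Pi.single_eq_same, hs]) hyy)
    refine hSm g (h1 hg) _ ?_
    rw [hgm _ hbx]
    exact hgood _ (Pi.single_eq_of_ne h02 _) (Pi.single_eq_of_ne h12 _)

end Cfsg.Agent.H346.SUFin
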